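import Mathlib
import Cfsg.Agent.H229.T.AFour
import Cfsg.Agent.H403.S88.GrpB

/-!
# S3588: the condition `CBad` for `Ω` of a quadratic space of odd dimension `3`, `5`, `11` (helper371)

* `ro_free_prime` : the Frobenius group `2^(n-1) : n`, `n` an odd prime, in `Ω_n(q)`;
* `exists_frob` : the same for a nondegenerate form of dimension `n`;
* `cbad_three` : dimension 3, `(3 : F) ≠ 0`;
* `cbad_prime` : dimension an odd prime `≥ 5`.
-/

set_option autoImplicit false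
set_option linter.unusedSectionVars false

namespace Cfsg.Agent.H371.S88

open QuadraticMap Module Finset
open Cfsg.Agent.LieClassical.OrthCore Cfsg.Agent.LieClassical.OrthForms Cfsg.Agent.LieClassical.OrthFinite
open Cfsg.Agent.H160 Cfsg.Agent.H160.QSpin Cfsg.Agent.H160.QDisc Cfsg.Agent.H160.QFinal Cfsg.Agent.H160.QModel
open Cfsg.Agent.H160.QReal
open Cfsg.Agent.H229.T
open Cfsg.Agent.H403.S88.Grp (CBad)

universe u

section Frob

variable {F : Type*} [Field F] [Fintype F] {n : ℕ} [NeZero n]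

/-- the values of `psi n 1` have product one -/
theorem prod_psi (t : ZMod n → ℤˣ) : ∏ i, (t * (fun i : ZMod n => t (i + ((1 : ℕ) : ZMod n)))⁻¹) i = 1 := by
  simp only [Pi.mul_apply, Pi.inv_apply]
  rw [Finset.prod_mul_distrib, Finset.prod_inv_distrib]
  have h := Equiv.prod_comp (Equiv.addRight ((1 : ℕ) : ZMod n)) t
  simp only [Equiv.coe_addRight] at h
  rw [h, mul_inv_cancel]

/-- the action is free, `n` prime -/
theorem ro_free_prime (hn : Odd n) (hnp : n.Prime) (h2 : (2 : F) ≠ 0) {c : F} (hc : c ≠ 0) {k : ℕ} (hk0 : 0 < k)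
    (hkn : k < n) (t : ZMod n → ℤˣ) (h : ro hn h2 hc ^ k * psi n 1 c t = psi n 1 c t * ro hn h2 hc ^ k) :
    psi n 1 c t = 1 := by
  set s : ZMod n → ℤˣ := t * (fun i => t (i + ((1 : ℕ) : ZMod n)))⁻¹ with hs
  have h1 : rot F (k : ZMod n) * ds F s = ds F s * rot F (k : ZMod n) := by
    have h3 := congrArg Subtype.val h
    rw [Subgroup.coe_mul, Subgroup.coe_mul, psi_coe, ← hs, SubgroupClass.coe_pow] at h3
    have h4 : ((ro hn h2 hc : Om (D F n c)) : (ZMod n → F) ≃ₗ[F] (ZMod n → F)) = rot F 1 := rfl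
    rw [h4, rot_pow] at h3
    exact h3
  rw [rot_ds] at h1
  have h4 := ds_inj h2 (mul_right_cancel h1)
  have h5 : ∀ i, s (i + k) = s i := fun i => congrFun h4 i
  have h6 : ∀ (j : ℕ) i, s (i + (j * k : ℕ)) = s i := by
    intro j
    induction j with
    | zero => intro i; simp
    | succ j ih =>
      intro i
      have : ((((j + 1) * k : ℕ)) : ZMod n) = ((j * k : ℕ) : ZMod n) + k := by push_cast; ring
      rw [this, ← add_assoc, h5, ih]
  have hcop : Nat.Coprime k n := (Nat.coprime_comm.1 ((Nat.Prime.coprime_iff_not_dvd hnp).2 fun h =>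
    absurd (Nat.le_of_dvd hk0 h) (by omega)))
  have h7 : ∀ x : ZMod n, s x = s 0 := by
    intro x
    have hu : IsUnit (k : ZMod n) := (ZMod.isUnit_iff_coprime k n).2 hcop
    obtain ⟨u, hu⟩ := hu
    have h8 : ((((u⁻¹ : (ZMod n)ˣ) : ZMod n) * x).val * k : ℕ) = x := by
      push_cast
      rw [ZMod.natCast_val, ZMod.cast_id', id, ← hu, mul_comm, ← mul_assoc, Units.mul_inv, one_mul]
    have h9 := h6 (((u⁻¹ : (ZMod n)ˣ) : ZMod n) * x).val 0
    rwa [h8, zero_add] at h9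
  have h8 := prod_psi t
  rw [← hs] at h8
  rw [Finset.prod_congr rfl (fun i _ => h7 i), Finset.prod_const, Finset.card_univ, ZMod.card] at h8
  have h9 : s 0 = 1 := by
    rcases Int.units_eq_one_or (s 0) with h10 | h10
    · exact h10
    · rw [h10, hn.neg_one_pow] at h8
      exact absurd h8 (by decide)
  apply Subtype.ext
  rw [psi_coe, ← hs]
  have h10 : s = 1 := by
    funext i
    rw [h7, h9]; rfl
  rw [h10, ds_one]
  rfl

/-- the group of sign changes is not trivial -/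
theorem exists_psi (h2 : (2 : F) ≠ 0) (h3 : 3 ≤ n) (c : F) : ∃ t, psi (F := F) n 1 c t ≠ 1 := by
  have : Fact (1 < n) := ⟨by omega⟩
  refine ⟨Pi.mulSingle 0 (-1), fun h => ?_⟩
  have h1 := congrArg Subtype.val h
  rw [psi_coe] at h1
  have h4 : ((1 : Om (D F n c)) : (ZMod n → F) ≃ₗ[F] (ZMod n → F)) = ds F 1 := by rw [ds_one]; rfl
  rw [h4] at h1
  have h5 := congrFun (ds_inj h2 h1) 0
  simp only [Pi.mul_apply, Pi.inv_apply, Pi.mulSingle_eq_same, zero_add, Nat.cast_one, Pi.one_apply] at h5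
  rw [Pi.mulSingle_eq_of_ne (one_ne_zero)] at h5
  exact absurd h5 (by decide)

/-- `2^(n-1) : n` in `Ω_n(q)`, `n` an odd prime -/
theorem exists_frob [DecidableEq F] (h2 : (2 : F) ≠ 0) (hn : Odd n) (hnp : n.Prime) {V : Type*} [AddCommGroup V]
    [Module F V] [FiniteDimensional F V] [Finite V] {Q : QuadraticForm F V} (hQ : Nondeg Q) (hV : finrank F V = n) :
    ∃ (U : Subgroup (Om Q)) (c : Om Q), orderOf c = n ∧ (∀ a ∈ U, c * a * c⁻¹ ∈ U) ∧
      (∀ i, 0 < i → i < orderOf c → ∀ a ∈ U, c ^ i * a = a * c ^ i → a = 1) ∧ Nat.card U ∣ 2 ^ n ∧ U ≠ ⊥ := by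
  obtain ⟨κ, e, hκ, he⟩ := exists_frame h2 hn hQ hV
  let φ : Om (D F n κ) ≃* Om Q := omCongr he
  have hord : orderOf (φ (ro hn h2 hκ)) = n :=
    (orderOf_injective φ.toMonoidHom φ.injective _).trans (orderOf_ro hn h2 hκ)
  refine ⟨(psi (F := F) n 1 κ).range.map φ.toMonoidHom, φ (ro hn h2 hκ), hord, ?_, ?_, ?_, ?_⟩
  · rintro _ ⟨_, ⟨t, rfl⟩, rfl⟩
    have h1 := ro_psi (m := 1) hn h2 hκ t
    refine ⟨psi n 1 κ (fun i => t (i + 1)), ⟨_, rfl⟩, ?_⟩
    rw [← mul_inv_eq_iff_eq_mul] at h1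
    show φ (psi n 1 κ (fun i => t (i + 1))) = φ (ro hn h2 hκ) * φ (psi n 1 κ t) * (φ (ro hn h2 hκ))⁻¹
    rw [← h1, map_mul, map_mul, map_inv]
  · rintro i hi0 hi _ ⟨_, ⟨t, rfl⟩, rfl⟩ hcomm
    rw [hord] at hi
    change φ (ro hn h2 hκ) ^ i * φ (psi n 1 κ t) = φ (psi n 1 κ t) * φ (ro hn h2 hκ) ^ i at hcomm
    rw [← map_pow, ← map_mul, ← map_mul] at hcomm
    show φ (psi n 1 κ t) = 1
    rw [ro_free_prime hn hnp h2 hκ hi0 hi t (φ.injective hcomm), map_one]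
  · exact (Subgroup.card_map_dvd _ _).trans (card_psi_range κ)
  · have h3 : 3 ≤ n := by
      have := hnp.two_le
      obtain ⟨j, hj⟩ := hn
      omega
    obtain ⟨t, ht⟩ := exists_psi (F := F) h2 h3 κ
    intro hbot
    apply ht
    apply φ.injective
    have h4 : φ.toMonoidHom (psi n 1 κ t) ∈ (psi (F := F) n 1 κ).range.map φ.toMonoidHom := ⟨_, ⟨t, rfl⟩, rfl⟩
    rw [hbot, Subgroup.mem_bot] at h4
    rw [map_one]
    exact h4

end Frob

section cbad

variable {F : Type*} [Field F] [Fintype F]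

theorem norm_fixed {A W : Type*} [Group A] [CommGroup W] {θ : A →* MulAut W} {b : A} {w : W} (hw : θ b w = w) (m : ℕ) :
    ∏ i ∈ range m, θ (b ^ i) w = w ^ m := by
  have h1 : ∀ i, θ (b ^ i) w = w := by
    intro i
    induction i with
    | zero => rw [pow_zero, map_one]; rfl
    | succ i ih => rw [pow_succ, map_mul, MulAut.mul_apply, hw, ih]
  rw [Finset.prod_congr rfl (fun i _ => h1 i), Finset.prod_const, Finset.card_range]

theorem pow_ne_one_of {W : Type*} [Group W] {w : W} (hw1 : w ≠ 1) {m p : ℕ} (hp : w ^ p = 1) (hm : Nat.Coprime m p) :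
    w ^ m ≠ 1 := by
  intro h
  apply hw1
  have h5 := pow_gcd_eq_one.2 ⟨h, hp⟩
  rwa [hm, pow_one] at h5

/-- **Dimension three, characteristic `≠ 3`.** -/
theorem cbad_three {p r : ℕ} (hp : p.Prime) (hp2 : p ≠ 2) (hp3 : p ≠ 3) (hr : r.Prime) (hr3 : r ≠ 3) {Omg : Set ℕ}
    (h : 3 * p * r ∉ Omg) (h2 : (2 : F) ≠ 0) (h3 : (3 : F) ≠ 0) {κ : F} (hκ : κ ≠ 0) :
    CBad.{u} (Om (D F 3 κ)) Omg p r := by
  intro W _ θ hW hW1
  obtain ⟨b, hb, w, hw1, hw⟩ := exists_fixed h2 h3 hκ θ hW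
    ((Nat.coprime_primes Nat.prime_two hp).2 hp2.symm) hW1
  refine ⟨b, ?_, by rw [hb]; exact h, w, ?_⟩
  · rw [hb]
    exact (Nat.coprime_primes Nat.prime_three hr).2 hr3.symm
  · rw [hb, norm_fixed hw]
    exact pow_ne_one_of hw1 (hW w) ((Nat.coprime_primes Nat.prime_three hp).2 hp3.symm)

/-- **Prime dimension `≥ 5`.** -/
theorem cbad_prime {n : ℕ} [NeZero n] (hn : Odd n) (hnp : n.Prime) (h5 : 5 ≤ n) {p r : ℕ} (hp : p.Prime) (hp2 : p ≠ 2)
    (hpn : p ≠ n) (hr : r.Prime) (hrn : r ≠ n) {Omg : Set ℕ}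
    (h : n * p * r ∉ Omg) (h2 : (2 : F) ≠ 0) {κ : F} (hκ : κ ≠ 0) :
    CBad.{u} (Om (D F n κ)) Omg p r := by
  intro W _ θ hW hW1
  have hord := orderOf_ro hn h2 hκ
  have hfU : Finite (psi (F := F) n 1 κ).range := Finite.of_surjective _ (psi (F := F) n 1 κ).rangeRestrict_surjective
  refine ⟨ro hn h2 hκ, by rw [hord]; exact (Nat.coprime_primes hnp hr).2 hrn.symm, by rw [hord]; exact h, ?_⟩
  rw [hord]
  by_contra hcon
  push Not at hcon
  have key := H371.Frob.trivial_of_norm θ (psi (F := F) n 1 κ).range (c := ro hn h2 hκ) (m := n) (e := p) hnp.pos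
    (by
      rintro _ ⟨t, rfl⟩ i
      obtain ⟨s, hs⟩ := ro_inv_psi (m := 1) hn h2 hκ i t
      exact ⟨s, hs.symm⟩)
    (by
      rintro i hi0 hi _ ⟨t, rfl⟩ hcomm
      exact ro_free_prime hn hnp h2 hκ hi0 hi t hcomm)
    hW
    (Nat.Coprime.coprime_dvd_left (card_psi_range κ) (Nat.Coprime.pow_left n
      ((Nat.coprime_primes Nat.prime_two hp).2 hp2.symm)))
    hcon
  have hs : IsSimpleGroup (Om (D F n κ)) := by
    have hQ := nondeg_D (n := n) h2 hκ
    have h6 : 5 ≤ Fintype.card (ZMod n) := by rw [ZMod.card]; exact h5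
    obtain ⟨e⟩ := exists_pomega h2 hQ h6 (by rw [ZMod.card]; exact hn)
    have := isSimpleGroup_POmega hQ h6
    exact e.symm.isSimpleGroup
  have htop : θ.ker = ⊤ := by
    rcases hs.eq_bot_or_eq_top_of_normal θ.ker inferInstance with h7 | h7
    · exfalso
      obtain ⟨t, ht⟩ := exists_psi (F := F) (n := n) h2 (by omega) κ
      apply ht
      have h8 : psi n 1 κ t ∈ θ.ker := by
        rw [MonoidHom.mem_ker]
        exact MulEquiv.ext (key _ ⟨t, rfl⟩)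
      rw [h7, Subgroup.mem_bot] at h8
      exact h8
    · exact h7
  obtain ⟨w, hw⟩ := hW1
  have h8 : ro hn h2 hκ ∈ θ.ker := by rw [htop]; trivial
  have h9 : θ (ro hn h2 hκ) w = w := by
    rw [MonoidHom.mem_ker.1 h8]; rfl
  exact pow_ne_one_of hw (hW w) ((Nat.coprime_primes hnp hp).2 hpn.symm) ((norm_fixed h9 n).symm.trans (hcon w))

/-! ### dimension three, characteristic three -/

section three

variable {c : F}

/-- the sign changes act trivially -/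
theorem zv_trivial (h2 : (2 : F) ≠ 0) (hc : c ≠ 0) {W : Type*} [CommGroup W]
    (θ : Om (D F 3 c) →* MulAut W) {e : ℕ} (he : ∀ v : W, v ^ e = 1) (hcop : Nat.Coprime 2 e)
    (hcon : ∀ b : Om (D F 3 c), orderOf b = 3 → ∀ w, ∏ i ∈ range 3, θ (b ^ i) w = 1) :
    ∀ (v : ZMod 3 → F) (hv : D F 3 c v ≠ 0), D F 3 c v = c →
      ∃ h : zv v hv ∈ Om (D F 3 c), θ ⟨zv v hv, h⟩ = 1 := by
  classical
  have hodd : Odd 3 := by decide
  have key : ∀ (g : (ZMod 3 → F) ≃ₗ[F] (ZMod 3 → F)) (hg : g ∈ O (D F 3 c)) (t : ZMod 3 → ℤˣ),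
      θ (kap hg (psi 3 1 c t)) = 1 := by
    intro g hg t
    let U := (psi (F := F) 3 1 c).range.map (kap hg)
    have hfin : Finite U := by
      have : Finite (psi (F := F) 3 1 c).range := inferInstance
      exact Finite.of_surjective _ ((kap hg).subgroupMap_surjective (psi (F := F) 3 1 c).range)
    have hord : orderOf (kap hg (ro hodd h2 hc)) = 3 := by
      rw [orderOf_injective _ (kap_injective hg), orderOf_ro]
    have h4 := H371.Frob.trivial_of_norm θ U (c := kap hg (ro hodd h2 hc)) (m := 3) (e := e) (by norm_num)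
      (by
        rintro _ ⟨_, ⟨t, rfl⟩, rfl⟩ i
        obtain ⟨s, hs⟩ := ro_inv_psi (m := 1) hodd h2 hc i t
        refine ⟨psi 3 1 c s, ⟨s, rfl⟩, ?_⟩
        rw [← hs, map_mul, map_mul, map_inv, map_pow])
      (by
        rintro i hi0 hi _ ⟨_, ⟨t, rfl⟩, rfl⟩ hcomm
        rw [← map_pow, ← map_mul, ← map_mul] at hcomm
        rw [ro_free (n := 3) (m := 1) hodd h2 hc rfl (three_free i hi0 hi) t (kap_injective hg hcomm), map_one])
      he
      (by
        have h5 : Nat.card U ∣ 2 ^ 3 :=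
          (Subgroup.card_map_dvd (psi (F := F) 3 1 c).range (kap hg)).trans (card_psi_range c)
        exact Nat.Coprime.coprime_dvd_left h5 (Nat.Coprime.pow_left 3 hcop))
      (hcon _ hord)
      (kap hg (psi 3 1 c t)) ⟨_, ⟨t, rfl⟩, rfl⟩
    exact MulEquiv.ext h4
  let e0 : ZMod 3 → F := Pi.single 0 1
  have e00 : e0 0 = 1 := Pi.single_eq_same _ _
  have e01 : e0 1 = 0 := Pi.single_eq_of_ne (by decide) _
  have e02 : e0 2 = 0 := Pi.single_eq_of_ne (by decide) _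
  have hDe0 : D F 3 c e0 = c := by
    rw [D_apply, sum_three, e00, e01, e02]
    ring
  have he0 : D F 3 c e0 ≠ 0 := by rw [hDe0]; exact hc
  let t0 : ZMod 3 → ℤˣ := fun i => if i = 2 then -1 else 1
  have hz : ((psi 3 1 c t0 : Om (D F 3 c)) : (ZMod 3 → F) ≃ₗ[F] (ZMod 3 → F)) = zv e0 he0 := by
    rw [psi_coe]
    apply LinearEquiv.ext
    intro x
    funext i
    rw [ds_apply, zv_apply, hDe0, polar_D, sum_three]
    have hcc : c⁻¹ * c = 1 := inv_mul_cancel₀ hc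
    simp only [Pi.neg_apply, Pi.sub_apply, Pi.smul_apply, smul_eq_mul, e00, e01, e02]
    obtain rfl | rfl | rfl : i = 0 ∨ i = 1 ∨ i = 2 := by
      revert i; decide
    · have : (t0 * (fun i : ZMod 3 => t0 (i + ((1 : ℕ) : ZMod 3)))⁻¹) 0 = 1 := by decide
      rw [this, e00, Units.val_one, Int.cast_one]
      linear_combination (-2 * x 0) * hcc
    · have : (t0 * (fun i : ZMod 3 => t0 (i + ((1 : ℕ) : ZMod 3)))⁻¹) 1 = -1 := by decide
      rw [this, e01]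
      simp
    · have : (t0 * (fun i : ZMod 3 => t0 (i + ((1 : ℕ) : ZMod 3)))⁻¹) 2 = -1 := by decide
      rw [this, e02]
      simp
  intro v hv hvc
  obtain ⟨g, hg, h5⟩ := exists_map h2 hc hDe0 hvc
  have hge : D F 3 c (g e0) ≠ 0 := by rw [mem_O.1 hg]; exact he0
  have h6 : zv v hv = zv (g e0) hge := by
    rcases h5 with h5 | h5
    · subst h5; rfl
    · have h7 : D F 3 c (-v) ≠ 0 := by rw [QuadraticMap.map_neg]; exact hv
      rw [← zv_neg hv h7]
      congr 1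
      exact h5.symm
  have h7 : zv v hv = ((kap hg (psi 3 1 c t0) : Om (D F 3 c)) : (ZMod 3 → F) ≃ₗ[F] (ZMod 3 → F)) := by
    rw [h6]
    show _ = g * ((psi 3 1 c t0 : Om (D F 3 c)) : (ZMod 3 → F) ≃ₗ[F] (ZMod 3 → F)) * g⁻¹
    rw [hz, zv_conj hg he0 hge]
  refine ⟨by rw [h7]; exact (kap hg (psi 3 1 c t0)).2, ?_⟩
  rw [← key g hg t0]
  congr 1
  exact Subtype.ext h7

/-- `λ e - λ⁻¹ f` -/
def uv (l : F) : ZMod 3 → F := ![l - l⁻¹, l - l⁻¹, l + l⁻¹]

theorem D_uv (h3 : (3 : F) = 0) {l : F} (hl : l ≠ 0) : D F 3 c (uv l) = c := by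
  rw [D_apply, sum_three]
  have u0 : uv l 0 = l - l⁻¹ := rfl
  have u1 : uv l 1 = l - l⁻¹ := rfl
  have u2 : uv l 2 = l + l⁻¹ := rfl
  rw [u0, u1, u2]
  have h := mul_inv_cancel₀ hl
  linear_combination (c * (l ^ 2 + (l⁻¹) ^ 2 - 1)) * h3 - 2 * c * h

theorem zv_uv (h3 : (3 : F) = 0) (hc : c ≠ 0) {l : F} (hl : l ≠ 0) (hv : D F 3 c (uv l) ≠ 0) (x : ZMod 3 → F)
    (i : ZMod 3) : zv (uv l) hv x i = -x i + 2 * (uv l 0 * x 0 + uv l 1 * x 1 + uv l 2 * x 2) * uv l i := by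
  have hcc : c⁻¹ * c = 1 := inv_mul_cancel₀ hc
  rw [zv_apply, D_uv h3 hl, polar_D, sum_three]
  simp only [Pi.neg_apply, Pi.sub_apply, Pi.smul_apply, smul_eq_mul]
  linear_combination (2 * (uv l 0 * x 0 + uv l 1 * x 1 + uv l 2 * x 2) * uv l i) * hcc

/-- coordinates with respect to `(1,1,1)`, `(1,1,-1)`, `(1,-1,0)` -/
def bs (a b d : F) : ZMod 3 → F := ![a + b + d, a + b - d, a - b]

theorem zv_bs (h3 : (3 : F) = 0) (hc : c ≠ 0) {l : F} (hl : l ≠ 0) (hv : D F 3 c (uv l) ≠ 0) (a b d : F) :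
    zv (uv l) hv (bs a b d) = bs (-(l ^ 2 * b)) (-((l⁻¹) ^ 2 * a)) (-d) := by
  have h := mul_inv_cancel₀ hl
  funext i
  rw [zv_uv h3 hc hl hv]
  have u0 : uv l 0 = l - l⁻¹ := rfl
  have u1 : uv l 1 = l - l⁻¹ := rfl
  have u2 : uv l 2 = l + l⁻¹ := rfl
  have b0 : ∀ a b d : F, bs a b d 0 = a + b + d := fun _ _ _ => rfl
  have b1 : ∀ a b d : F, bs a b d 1 = a + b - d := fun _ _ _ => rfl
  have b2 : ∀ a b d : F, bs a b d 2 = a - b := fun _ _ _ => rfl
  obtain rfl | rfl | rfl : i = 0 ∨ i = 1 ∨ i = 2 := by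
    revert i; decide
  · rw [u0, u1, u2, b0, b1, b2, b0]
    linear_combination (-8 * (a + b)) * h +
      (l ^ 2 * b + (l⁻¹) ^ 2 * a + 2 * l ^ 2 * a + 2 * (l⁻¹) ^ 2 * b - 3 * (a + b)) * h3
  · rw [u0, u1, u2, b0, b1, b2, b1]
    linear_combination (-8 * (a + b)) * h +
      (l ^ 2 * b + (l⁻¹) ^ 2 * a + 2 * l ^ 2 * a + 2 * (l⁻¹) ^ 2 * b - 3 * (a + b)) * h3
  · rw [u0, u1, u2, b0, b1, b2, b2]
    linear_combination (4 * (a - b)) * h +
      (l ^ 2 * b - (l⁻¹) ^ 2 * a + 2 * l ^ 2 * a - 2 * (l⁻¹) ^ 2 * b + (a - b)) * h3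

/-- the product of `zv (uv 1)` and `zv (uv l)` is diagonal -/
theorem zz_pow (h3 : (3 : F) = 0) (hc : c ≠ 0) {l : F} (hl : l ≠ 0) (hv : D F 3 c (uv l) ≠ 0)
    (hv1 : D F 3 c (uv 1) ≠ 0) (k : ℕ) (a b d : F) :
    ((zv (uv 1) hv1 * zv (uv l) hv) ^ k) (bs a b d) = bs ((l⁻¹) ^ (2 * k) * a) (l ^ (2 * k) * b) d := by
  induction k with
  | zero =>
    rw [pow_zero, mul_zero, pow_zero, pow_zero, one_mul, one_mul]
    rfl
  | succ k ih =>
    rw [pow_succ']
    show zv (uv 1) hv1 (zv (uv l) hv (((zv (uv 1) hv1 * zv (uv l) hv) ^ k) (bs a b d))) = _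
    rw [ih, zv_bs h3 hc hl, zv_bs h3 hc one_ne_zero, inv_one, neg_neg]
    congr 1 <;> ring

theorem exists_bs (h2 : (2 : F) ≠ 0) (x : ZMod 3 → F) : ∃ a b d, x = bs a b d := by
  refine ⟨2⁻¹ * (2⁻¹ * (x 0 + x 1) + x 2), 2⁻¹ * (2⁻¹ * (x 0 + x 1) - x 2), 2⁻¹ * (x 0 - x 1), ?_⟩
  have h : (2 : F) * 2⁻¹ = 1 := mul_inv_cancel₀ h2
  funext i
  obtain rfl | rfl | rfl : i = 0 ∨ i = 1 ∨ i = 2 := by
    revert i; decide
  · show x 0 = 2⁻¹ * (2⁻¹ * (x 0 + x 1) + x 2) + 2⁻¹ * (2⁻¹ * (x 0 + x 1) - x 2) + 2⁻¹ * (x 0 - x 1)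
    linear_combination (-(2⁻¹ * (x 0 + x 1)) - x 0) * h
  · show x 1 = 2⁻¹ * (2⁻¹ * (x 0 + x 1) + x 2) + 2⁻¹ * (2⁻¹ * (x 0 + x 1) - x 2) - 2⁻¹ * (x 0 - x 1)
    linear_combination (-(2⁻¹ * (x 0 + x 1)) - x 1) * h
  · show x 2 = 2⁻¹ * (2⁻¹ * (x 0 + x 1) + x 2) - 2⁻¹ * (2⁻¹ * (x 0 + x 1) - x 2)
    linear_combination (- x 2) * h

theorem orderOf_zz (h2 : (2 : F) ≠ 0) (h3 : (3 : F) = 0) (hc : c ≠ 0) (l : Fˣ) (hv : D F 3 c (uv (l : F)) ≠ 0)
    (hv1 : D F 3 c (uv 1) ≠ 0) : orderOf (zv (uv 1) hv1 * zv (uv (l : F)) hv) = orderOf (l ^ 2) := by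
  rw [orderOf_eq_orderOf_iff]
  intro k
  constructor
  · intro h
    have h1 := zz_pow h3 hc l.ne_zero hv hv1 k 0 1 0
    rw [h] at h1
    have h4 : (1 : F) = l ^ (2 * k) := by
      have h5 : bs (0 : F) 1 0 0 = bs ((l : F)⁻¹ ^ (2 * k) * 0) ((l : F) ^ (2 * k) * 1) 0 0 := congrFun h1 0
      have h6 : ∀ a b d : F, bs a b d 0 = a + b + d := fun _ _ _ => rfl
      rw [h6, h6] at h5
      linear_combination h5
    rw [← pow_mul]
    exact Units.ext (by rw [Units.val_pow_eq_pow_val, ← h4, Units.val_one])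
  · intro h
    rw [← pow_mul] at h
    have h4 : (l : F) ^ (2 * k) = 1 := by rw [← Units.val_pow_eq_pow_val, h, Units.val_one]
    apply LinearEquiv.ext
    intro x
    obtain ⟨a, b, d, rfl⟩ := exists_bs h2 x
    rw [zz_pow h3 hc l.ne_zero, inv_pow, h4, inv_one, one_mul, one_mul]
    rfl

/-- **Dimension three, characteristic three.** -/
theorem cbad_three_three {r : ℕ} (hr : r.Prime) (hr3 : r ≠ 3) {Omg : Set ℕ}
    (h : 3 * 3 * r ∉ Omg) (h' : ((Fintype.card F - 1) / 2) * 3 * r ∉ Omg)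
    (hcop : Nat.Coprime ((Fintype.card F - 1) / 2) r) (h3 : (3 : F) = 0) {κ : F} (hκ : κ ≠ 0) :
    CBad.{u} (Om (D F 3 κ)) Omg 3 r := by
  classical
  have h2 : (2 : F) ≠ 0 := fun h2 => one_ne_zero (α := F) (by linear_combination h3 - h2)
  intro W _ θ hW hW1
  by_contra hcon
  push Not at hcon
  have h4 := zv_trivial h2 hκ θ hW (by norm_num) (fun b hb w => by
    have h5 := hcon b (by rw [hb]; exact (Nat.coprime_primes Nat.prime_three hr).2 hr3.symm) (by rw [hb]; exact h) w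
    rwa [hb] at h5)
  -- a generator
  obtain ⟨l, hl⟩ := IsCyclic.exists_generator (α := Fˣ)
  have hlo : orderOf l = Fintype.card F - 1 := by
    rw [orderOf_eq_card_of_forall_mem_zpowers hl, Nat.card_eq_fintype_card, Fintype.card_units]
  have hchar : ringChar F ≠ 2 := by
    intro h
    apply h2
    have := ringChar.spec F 2
    rw [h] at this
    exact_mod_cast this.2 dvd_rfl
  have hcard : Fintype.card F % 2 = 1 := FiniteField.odd_card_of_char_ne_two hchar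
  have hlt : 1 < Fintype.card F := Fintype.one_lt_card
  have hl2 : orderOf (l ^ 2) = (Fintype.card F - 1) / 2 := by
    rw [orderOf_pow' l (by norm_num), hlo, Nat.gcd_eq_right (by omega)]
  have hD1 := D_uv (c := κ) h3 (one_ne_zero (α := F))
  have hDl := D_uv (c := κ) h3 l.ne_zero
  obtain ⟨m1, e1⟩ := h4 (uv 1) (by rw [hD1]; exact hκ) hD1
  obtain ⟨m2, e2⟩ := h4 (uv (l : F)) (by rw [hDl]; exact hκ) hDl
  let z : Om (D F 3 κ) := (⟨_, m1⟩ : Om (D F 3 κ)) * ⟨_, m2⟩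
  have hz : orderOf z = (Fintype.card F - 1) / 2 := by
    rw [← hl2, ← orderOf_zz h2 h3 hκ l (by rw [hDl]; exact hκ) (by rw [hD1]; exact hκ), ← Subgroup.orderOf_coe]
    rfl
  have hθ : θ z = 1 := by rw [map_mul, e1, e2, mul_one]
  obtain ⟨w, hw⟩ := hW1
  have h6 := hcon z (by rw [hz]; exact hcop) (by rw [hz]; exact h') w
  rw [norm_fixed (by rw [hθ]; rfl)] at h6
  refine pow_ne_one_of hw (hW w) ?_ h6
  rw [hz, Nat.coprime_comm, Nat.Prime.coprime_iff_not_dvd Nat.prime_three]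
  intro h7
  have h8 : 3 ∣ Fintype.card F := by
    obtain ⟨p, hp⟩ := CharP.exists F
    have h9 : p = 3 := by
      have h10 : p ∣ 3 := (CharP.cast_eq_zero_iff F p 3).1 (by exact_mod_cast h3)
      exact (Nat.prime_dvd_prime_iff_eq (CharP.char_is_prime F p) Nat.prime_three).1 h10
    subst h9
    exact (CharP.cast_eq_zero_iff F 3 _).1 (FiniteField.cast_card_eq_zero F)
  omega

end three

end cbad

end Cfsg.Agent.H371.S88
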